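import Cfsg.Agent.H6.Asm45
import Cfsg.Agent.QTNorm.Base

/-!
# S1844: assembly (helper6)

`L ∈ ℒ_f*(G, T)` normal in the maximal 2-local subgroup `M ≥ T`, `L/O₂(L) ≃ L₂(2ⁿ)`, `n > 1`: `M` is the unique maximal
2-local subgroup containing `L`.
-/

set_option autoImplicit false

namespace Cfsg.Agent.H6.Asm44

open Subgroup Cfsg Cfsg.Agent.H6.FiveRow Cfsg.Agent.H6.Asm45
open Cfsg.Agent.QTUniq.Local (le_normalizer_map_pCore)

universe u

variable {G : Type u} [Group G] [Finite G]

/-- `M = N(O₂(L))` if `L` is normal in the maximal 2-local subgroup `M` -/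
theorem normalizer_core_le {T M L : Subgroup G} (hM : IsMaximalTwoLocal M) (hL : L ∈ calLf T)
    (hN : M ≤ normalizer (L : Set G)) :
    normalizer (((Cfsg.pCore 2 ↥L).map L.subtype : Subgroup G) : Set G) = M := by
  have h7 : M ≤ normalizer (((Cfsg.pCore 2 ↥L).map L.subtype : Subgroup G) : Set G) :=
    hN.trans (FiveRow.normalizer_le_core L)
  have h8 : IsTwoLocal (normalizer (((Cfsg.pCore 2 ↥L).map L.subtype : Subgroup G) : Set G)) := by
    refine ⟨(Cfsg.pCore 2 ↥L).map L.subtype, (Lib.Cores.pCore_isPGroup 2).map _, fun hb => ?_, rfl⟩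
    have h9 := (H4.Small.acts_inner hL).2.eight_le
    have h10 := FiveRow.uu_le L
    rw [hb, le_bot_iff] at h10
    rw [h10, Subgroup.card_bot] at h9
    omega
  exact hM.2 _ h8 h7

/-- a maximal 2-local subgroup containing `L` and a Sylow 2-subgroup of `G` in `N(L)` -/
theorem eq_of_sylow (T : Sylow 2 G) {M L N : Subgroup G} (hM : M ∈ maxTwoLocalsContaining (T : Subgroup G))
    (hL : L ∈ calLf (T : Subgroup G)) (hN : M ≤ normalizer (L : Set G))
    (hU : ∀ N ∈ maxTwoLocalsContaining (L ⊔ (T : Subgroup G)), N = M)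
    (hNm : IsMaximalTwoLocal N) (hLN : L ≤ N) {T1 : Subgroup G} (hT1 : IsPGroup 2 T1)
    (hc : Nat.card (T : Subgroup G) ≤ Nat.card T1) (hT1N : T1 ≤ N) (hT1L : T1 ≤ normalizer (L : Set G)) : N = M := by
  have h2 : Fact (Nat.Prime 2) := ⟨Nat.prime_two⟩
  have hTL : (T : Subgroup G) ≤ normalizer (L : Set G) := hM.2.trans hN
  set X : Subgroup G := normalizer (L : Set G) with hX
  have hp : IsPGroup 2 ↥(T1.subgroupOf X) :=
    hT1.of_injective (Subgroup.subgroupOfEquivOfLe hT1L).toMonoidHom (Subgroup.subgroupOfEquivOfLe _).injective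
  obtain ⟨P, hP⟩ := hp.exists_le_sylow
  obtain ⟨g, hg⟩ := MulAction.exists_smul_eq ↥X (T.subtype hTL) P
  have hcP : Nat.card ↥(P : Subgroup ↥X) = Nat.card (T : Subgroup G) := by
    rw [← hg]
    have h1 : Nat.card ↥((g • T.subtype hTL : Sylow 2 ↥X) : Subgroup ↥X) =
        Nat.card ↥((T.subtype hTL : Sylow 2 ↥X) : Subgroup ↥X) := by
      rw [Sylow.card_eq_multiplicity, Sylow.card_eq_multiplicity]
    rw [h1]
    exact Nat.card_congr (Subgroup.subgroupOfEquivOfLe hTL).toEquiv
  have hPT : T1.subgroupOf X = (P : Subgroup ↥X) := by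
    apply Subgroup.eq_of_le_of_card_ge hP
    rw [hcP, Nat.card_congr (Subgroup.subgroupOfEquivOfLe hT1L).toEquiv]
    exact hc
  have hgT : ∀ t ∈ (T : Subgroup G), (g : G) * t * (g : G)⁻¹ ∈ T1 := by
    intro t ht
    have h1 : g * ⟨t, hTL ht⟩ * g⁻¹ ∈ (P : Subgroup ↥X) := by
      rw [← hg, Sylow.coe_subgroup_smul]
      exact ⟨⟨t, hTL ht⟩, ht, rfl⟩
    rw [← hPT] at h1
    exact h1
  -- the conjugate of `N`
  set e := MulAut.conj ((g : G)⁻¹) with he
  have h3 : N.map e.toMonoidHom ∈ maxTwoLocalsContaining (L ⊔ (T : Subgroup G)) := by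
    refine ⟨QTNorm.isMaximalTwoLocal_map e hNm, sup_le ?_ ?_⟩
    · intro x hx
      have h4 := (mem_normalizer_iff.1 g.2 x).1 hx
      refine ⟨g * x * (g : G)⁻¹, hLN h4, ?_⟩
      show (g : G)⁻¹ * (g * x * (g : G)⁻¹) * ((g : G)⁻¹)⁻¹ = x
      group
    · intro x hx
      refine ⟨g * x * (g : G)⁻¹, hT1N (hgT x hx), ?_⟩
      show (g : G)⁻¹ * (g * x * (g : G)⁻¹) * ((g : G)⁻¹)⁻¹ = x
      group
  have h4 := hU _ h3
  have hgM : (g : G) ∈ M := by
    rw [← normalizer_core_le hM.1 hL hN]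
    exact FiveRow.normalizer_le_core L g.2
  have h5 : ∀ x : G, x ∈ N ↔ x ∈ M := by
    intro x
    have h6 : (g : G)⁻¹ * x * g ∈ M ↔ x ∈ M := by
      constructor
      · intro h
        have := mul_mem (mul_mem hgM h) (inv_mem hgM)
        have e : (g : G) * ((g : G)⁻¹ * x * g) * (g : G)⁻¹ = x := by group
        rwa [e] at this
      · intro h
        exact mul_mem (mul_mem (inv_mem hgM) h) hgM
    rw [← h6, ← h4]
    constructor
    · intro hx
      refine ⟨x, hx, ?_⟩
      show (g : G)⁻¹ * x * ((g : G)⁻¹)⁻¹ = (g : G)⁻¹ * x * g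
      group
    · rintro ⟨y, hy, e⟩
      have e' : (g : G)⁻¹ * y * ((g : G)⁻¹)⁻¹ = (g : G)⁻¹ * x * g := e
      have h7 : y = x := by
        calc y = g * ((g : G)⁻¹ * y * ((g : G)⁻¹)⁻¹) * (g : G)⁻¹ := by group
          _ = x := by rw [e']; group
      rw [← h7]; exact hy
  exact Subgroup.ext h5

/-- **The case `L = 2⁴:A₅`** -/
theorem five (h256 : ¬ 256 ∣ Nat.card G) (T : Sylow 2 G) {M L N : Subgroup G}
    (hM : M ∈ maxTwoLocalsContaining (T : Subgroup G))
    (hL : L ∈ calLf (T : Subgroup G)) (hN : M ≤ normalizer (L : Set G)) (h5 : Five (T : Subgroup G) L)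
    (hU : ∀ N ∈ maxTwoLocalsContaining (L ⊔ (T : Subgroup G)), N = M)
    (hNm : IsMaximalTwoLocal N) (hLN : L ≤ N) : N = M := by
  have h2 : Fact (Nat.Prime 2) := ⟨Nat.prime_two⟩
  obtain ⟨ψ, hψ, hk⟩ := h5.psi
  set V : Subgroup G := (Cfsg.pCore 2 ↥L).map L.subtype with hV
  have hLV : L ≤ normalizer (V : Set G) := le_normalizer_map_pCore 2 L
  have hVL : V ≤ L := map_subtype_le _
  set T0 : Subgroup G := (T : Subgroup G) ⊓ L with hT0
  have hVT : V ≤ T0 :=
    le_inf ((H4.Lf.core_le le_sup_left (H4.Lf.subnormal hL.1)).trans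
      (Cfsg.Agent.QTUniq.Local.map_pCore_le_sylow T le_sup_right)) (map_subtype_le _)
  -- the orders
  have hT7 : Nat.card (T : Subgroup G) ≤ 128 := by
    obtain ⟨t, ht⟩ := IsPGroup.iff_card.1 T.isPGroup'
    have ht7 : t ≤ 7 := by
      by_contra h
      apply h256
      refine Dvd.dvd.trans ?_ (Subgroup.card_subgroup_dvd_card (T : Subgroup G))
      rw [ht, show 256 = 2 ^ 8 by norm_num]
      exact pow_dvd_pow 2 (by omega)
    rw [ht]
    calc 2 ^ t ≤ 2 ^ 7 := Nat.pow_le_pow_right (by norm_num) ht7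
      _ = 128 := by norm_num
  have hp7 : ∀ P : Subgroup G, IsPGroup 2 P → ∃ k ≤ 7, Nat.card ↥P = 2 ^ k := by
    intro P hP
    obtain ⟨t, ht⟩ := IsPGroup.iff_card.1 hP
    refine ⟨t, ?_, ht⟩
    by_contra h
    apply h256
    refine Dvd.dvd.trans ?_ (Subgroup.card_subgroup_dvd_card P)
    rw [ht, show 256 = 2 ^ 8 by norm_num]
    exact pow_dvd_pow 2 (by omega)
  -- `D = O₂(N)`
  set D : Subgroup G := (Cfsg.pCore 2 ↥N).map N.subtype with hD
  have hDp : IsPGroup 2 ↥D := (Lib.Cores.pCore_isPGroup 2).map _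
  have hDN : D ≤ N := map_subtype_le _
  have hND : N ≤ normalizer (D : Set G) := le_normalizer_map_pCore 2 N
  have hLD : L ≤ normalizer (D : Set G) := hLN.trans hND
  have hDne : D ≠ ⊥ := by
    obtain ⟨⟨R, hR, hR1, rfl⟩, -⟩ := hNm
    intro hb
    apply hR1
    have h3 : R ≤ D := by
      intro x hx
      have h4 : R.subgroupOf (normalizer (R : Set G)) ≤ Cfsg.pCore 2 ↥(normalizer (R : Set G)) := by
        apply Lib.Cores.le_pCore
        · infer_instance
        · exact hR.of_injective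
            (Subgroup.subgroupOfEquivOfLe (le_normalizer : R ≤ normalizer (R : Set G))).toMonoidHom
            (Subgroup.subgroupOfEquivOfLe _).injective
      exact ⟨⟨x, le_normalizer hx⟩, h4 hx, rfl⟩
    rw [hb] at h3
    exact le_bot_iff.1 h3
  have hNeq : normalizer (D : Set G) = N := hNm.2 _ ⟨D, hDp, hDne, rfl⟩ hND
  -- `D ∩ L`
  have hDL : D ⊓ L = ⊥ ∨ D ⊓ L = V := by
    have hn : L ≤ normalizer ((D ⊓ L : Subgroup G) : Set G) := by
      have key : ∀ g ∈ L, ∀ x ∈ D ⊓ L, g * x * g⁻¹ ∈ D ⊓ L := by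
        intro g hg x hx
        exact mem_inf.2 ⟨(mem_normalizer_iff.1 (hLD hg) x).1 (mem_inf.1 hx).1,
          mul_mem (mul_mem hg (mem_inf.1 hx).2) (inv_mem hg)⟩
      intro g hg
      rw [mem_normalizer_iff]
      intro x
      refine ⟨key g hg x, fun hx => ?_⟩
      have h1 := key g⁻¹ (inv_mem hg) _ hx
      have e : g⁻¹ * (g * x * g⁻¹) * g⁻¹⁻¹ = x := by group
      rwa [e] at h1
    have hle : D ⊓ L ≤ V := by
      intro x hx
      have h4 : (D ⊓ L).subgroupOf L ≤ Cfsg.pCore 2 ↥L := by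
        apply Lib.Cores.le_pCore
        · exact (normal_subgroupOf_iff_le_normalizer inf_le_right).2 hn
        · exact (hDp.to_le (inf_le_left : D ⊓ L ≤ D)).of_injective
            (Subgroup.subgroupOfEquivOfLe (inf_le_right : D ⊓ L ≤ L)).toMonoidHom (Subgroup.subgroupOfEquivOfLe _).injective
      exact ⟨⟨x, (mem_inf.1 hx).2⟩, h4 hx, rfl⟩
    exact TwoEA.irred hLV hn hle h5.card h5.comm h5.cen ψ hψ hk
  -- the 2-group `D T0`
  have hT0D : T0 ≤ normalizer (D : Set G) := inf_le_right.trans hLD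
  have hcs : Nat.card ↥(D ⊔ T0 : Subgroup G) * Nat.card ↥(D ⊓ T0 : Subgroup G) = Nat.card ↥D * 64 := by
    rw [← h5.cardT]; exact H278.ThompsonSurj.card_sup_mul hT0D
  have hT1 : IsPGroup 2 ↥(D ⊔ T0 : Subgroup G) := by
    have h3 : IsPGroup 2 ↥T0 := T.isPGroup'.to_le inf_le_left
    exact hDp.to_sup_of_normal_left' h3 hT0D
  obtain ⟨k, hk7, hk1⟩ := hp7 _ hT1
  have hT1N : D ⊔ T0 ≤ N := sup_le hDN (inf_le_right.trans hLN)
  -- if `D ≤ N(L)` and `|D| ≠ 16`
  have key : D ≤ normalizer (L : Set G) → 128 ≤ Nat.card ↥(D ⊔ T0 : Subgroup G) → N = M := by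
    intro h3 h4
    exact eq_of_sylow T hM hL hN hU hNm hLN hT1 (hT7.trans h4) hT1N
      (sup_le h3 (inf_le_right.trans le_normalizer))
  rcases hDL with h | h
  · -- `|D| = 2`
    have h3 : Nat.card ↥(D ⊓ T0 : Subgroup G) = 1 := by
      have h4 : D ⊓ T0 ≤ D ⊓ L := inf_le_inf_left _ inf_le_right
      rw [h, le_bot_iff] at h4
      rw [h4, Subgroup.card_bot]
    rw [h3, mul_one, hk1] at hcs
    obtain ⟨d, hd7, hd⟩ := hp7 D hDp
    have hd1 : d ≠ 0 := by
      rintro rfl
      exact hDne (Subgroup.card_eq_one.1 (by rw [hd]; norm_num))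
    rw [hd, show 64 = 2 ^ 6 by norm_num, ← pow_add] at hcs
    have hkd : k = d + 6 := Nat.pow_right_injective le_rfl hcs
    have hd1' : d = 1 := by omega
    subst hd1'
    have hcent : ∀ l ∈ L, ∀ x ∈ D, l * x * l⁻¹ = x := by
      intro l hl x hx
      by_cases hx1 : x = 1
      · rw [hx1]; group
      · have h6 := (mem_normalizer_iff.1 (hLD hl) x).1 hx
        have h7 : l * x * l⁻¹ ≠ 1 := by
          intro h8
          apply hx1
          calc x = l⁻¹ * (l * x * l⁻¹) * l := by group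
            _ = 1 := by rw [h8]; group
        have h9 : Nat.card ↥D = 2 := by rw [hd]; norm_num
        obtain ⟨a, b, hab, huniv⟩ := Nat.card_eq_two_iff.1 h9
        have h10 : ∀ y : ↥D, y = a ∨ y = b := by
          intro y
          have : y ∈ ({a, b} : Set ↥D) := by rw [huniv]; trivial
          simpa using this
        have e1 := h10 1
        have e2 := h10 ⟨x, hx⟩
        have e3 := h10 ⟨l * x * l⁻¹, h6⟩
        have n1 : (⟨x, hx⟩ : ↥D) ≠ 1 := fun h => hx1 (congrArg Subtype.val h)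
        have n2 : (⟨l * x * l⁻¹, h6⟩ : ↥D) ≠ 1 := fun h => h7 (congrArg Subtype.val h)
        have e4 : (⟨l * x * l⁻¹, h6⟩ : ↥D) = ⟨x, hx⟩ := by
          rcases e1 with e1 | e1 <;> rcases e2 with e2 | e2 <;> rcases e3 with e3 | e3
          · exact e3.trans e2.symm
          · exact absurd (e2.trans e1.symm) n1
          · exact absurd (e3.trans e1.symm) n2
          · exact e3.trans e2.symm
          · exact e3.trans e2.symm
          · exact absurd (e3.trans e1.symm) n2
          · exact absurd (e2.trans e1.symm) n1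
          · exact e3.trans e2.symm
        exact congrArg Subtype.val e4
    apply key
    · intro x hx
      rw [mem_normalizer_iff]
      intro l
      constructor
      · intro hl
        have h6 := hcent l hl x hx
        have h7 : x * l * x⁻¹ = l := by
          have : l * x = x * l := by
            calc l * x = l * x * l⁻¹ * l := by group
              _ = x * l := by rw [h6]
          rw [← this]; group
        rw [h7]; exact hl
      · intro hl
        have h6 := hcent _ hl x hx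
        have h7 : x * (x * l * x⁻¹) = x * l * x⁻¹ * x := by
          calc x * (x * l * x⁻¹) = (x * l * x⁻¹ * x * (x * l * x⁻¹)⁻¹) * (x * l * x⁻¹) := by rw [h6]
            _ = x * l * x⁻¹ * x := by group
        have h8 : l = x * l * x⁻¹ := by
          calc l = x⁻¹ * (x * l * x⁻¹ * x) := by group
            _ = x⁻¹ * (x * (x * l * x⁻¹)) := by rw [h7]
            _ = x * l * x⁻¹ := by group
        rw [h8]; exact hl
    · rw [hk1, hkd]; norm_num
  · -- `V ≤ D`
    have hVD : V ≤ D := by rw [← h]; exact inf_le_left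
    have h3 : D ⊓ T0 = V := by
      apply le_antisymm
      · rw [← h]; exact inf_le_inf_left _ inf_le_right
      · exact le_inf hVD hVT
    rw [h3, h5.card, hk1] at hcs
    obtain ⟨d, hd7, hd⟩ := hp7 D hDp
    rw [hd, show 64 = 2 ^ 6 by norm_num, show 16 = 2 ^ 4 by norm_num, ← pow_add, ← pow_add] at hcs
    have hkd : k + 4 = d + 6 := Nat.pow_right_injective le_rfl hcs
    have hd4 : 4 ≤ d := by
      have h6 := Subgroup.card_dvd_of_le hVD
      rw [h5.card, hd, show 16 = 2 ^ 4 by norm_num] at h6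
      exact (Nat.pow_dvd_pow_iff_le_right (by norm_num)).1 h6
    by_cases hd' : d = 4
    · -- `D = V`
      have h6 : V = D := Subgroup.eq_of_le_of_card_ge hVD (by rw [hd, hd', h5.card]; norm_num)
      rw [← hNeq, ← h6, hV]
      exact normalizer_core_le hM.1 hL hN
    · have hd5 : d = 5 := by omega
      subst hd5
      -- `|D : V| = 2`
      have hidx : V.relIndex D = 2 := by
        have h6 := H278.ThompsonSurj.card_mul_relIndex hVD
        rw [h5.card, hd] at h6
        omega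
      have htwo : ∀ x ∈ D, ∀ y ∈ D, x ∉ V → y ∉ V → x⁻¹ * y ∈ V := by
        intro x hx y hy hxV hyV
        have h6 := Subgroup.mul_mem_iff_of_index_two (H := V.subgroupOf D) hidx (a := ⟨x⁻¹, inv_mem hx⟩) (b := ⟨y, hy⟩)
        have h7 : x⁻¹ ∉ V := fun h => hxV (by simpa using inv_mem h)
        exact h6.2 ⟨fun h => absurd h h7, fun h => absurd h hyV⟩
      apply key
      · have hcom : ∀ d ∈ D, ∀ l ∈ L, d⁻¹ * l * d ∈ L := by
          intro x hx l hl
          by_cases hxV : x ∈ V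
          · exact mul_mem (mul_mem (inv_mem (hVL hxV)) hl) (hVL hxV)
          · have h6 := (mem_normalizer_iff.1 (hLD hl) x).1 hx
            have h7 : l * x * l⁻¹ ∉ V := fun h => hxV ((mem_normalizer_iff.1 (hLV hl) x).2 h)
            have h8 := htwo x hx _ h6 hxV h7
            have h9 : x⁻¹ * l * x = x⁻¹ * (l * x * l⁻¹) * l := by group
            rw [h9]
            exact mul_mem (hVL h8) hl
        intro x hx
        rw [mem_normalizer_iff]
        intro l
        constructor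
        · intro hl
          have h6 := hcom x⁻¹ (inv_mem hx) l hl
          rwa [inv_inv] at h6
        · intro hl
          have h6 := hcom x hx _ hl
          have e : x⁻¹ * (x * l * x⁻¹) * x = l := by group
          rwa [e] at h6
      · rw [hk1, show k = 7 by omega]; norm_num

/-- **S1844**, given the uniqueness theorem for `⟨L, T⟩` -/
theorem main (hFT0 : H5.Top.FT.{0}) (hFT : H5.Top.FT.{u}) {G : Type u} [Group G] [Finite G] [IsSimpleGroup G]
    (hG : ¬ IsMulCommutative G) (hQ : IsQTKE G) (hE : IsOfEvenCharacteristic G) (hl : IsOnQTKEList G) (T : Sylow 2 G)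
    (M L : Subgroup G) (hM : M ∈ maxTwoLocalsContaining (T : Subgroup G)) (hL : L ∈ calLfMax (T : Subgroup G))
    (hLM : L ≤ M) (hN : M ≤ normalizer (L : Set G))
    (hL2 : ∃ (F : Type) (_ : Field F) (_ : Fintype F), CharP F 2 ∧ 4 ≤ Fintype.card F ∧
      Nonempty ((↥L ⧸ Cfsg.pCore 2 ↥L) ≃* Matrix.ProjectiveSpecialLinearGroup (Fin 2) F))
    (hU : ∃ N0 : Subgroup G, maxTwoLocalsContaining (L ⊔ (T : Subgroup G)) = {N0}) :
    maxTwoLocalsContaining L = {M} := by
  obtain ⟨F, _, _, hch, h4, ⟨e⟩⟩ := hL2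
  have hLf : L ∈ calLf (T : Subgroup G) := ⟨hL.1.1, hL.2⟩
  obtain ⟨N0, hN0⟩ := hU
  have hMU : M ∈ maxTwoLocalsContaining (L ⊔ (T : Subgroup G)) := ⟨hM.1, sup_le hLM hM.2⟩
  have hMN0 : M = N0 := by
    rw [hN0] at hMU
    exact hMU
  subst hMN0
  have hU' : ∀ N ∈ maxTwoLocalsContaining (L ⊔ (T : Subgroup G)), N = M := by
    intro N h
    rw [hN0] at h
    exact h
  have hTL : (T : Subgroup G) ≤ L → ∀ N ∈ maxTwoLocalsContaining L, N = M := fun h N hN' =>
    hU' N ⟨hN'.1, sup_le hN'.2 (h.trans hN'.2)⟩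
  apply le_antisymm
  · intro N hNm
    rcases rows hFT0 hFT hG hQ hE hl T hL h4 e with h | h
    · exact hTL h N hNm
    · rcases FiveRow.main' h T hLf h4 e with h5 | h5
      · exact hTL h5 N hNm
      · exact five h T hM hLf hN h5 hU' hNm.1 hNm.2
  · rintro N rfl
    exact ⟨hM.1, hLM⟩

end Cfsg.Agent.H6.Asm44
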